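import Cfsg.Agent.DU.Uniq
import Cfsg.Agent.DU.Ev
import Cfsg.Agent.DU.Prod
import Cfsg.Agent.DTO.Main

set_option autoImplicit false
set_option linter.unusedSectionVars false

namespace Cfsg.Agent.DU

open Cfsg.Agent.DT hiding Ctx Blk
open Subgroup (zpowers)

variable {G : Type*} [Group G] [Finite G] {p q : ℕ} {x : G}

theorem OddAux.odd_sup (C : Ctx p q x) {Q : Subgroup G} (hQ : IsPGroup q Q) {a : G} (ha : IsConj x a)
    (haQ : a ∈ nor Q) {W : Subgroup G} (hW : W ≤ zpowers a ⊔ Q) : Odd (Nat.card W) := by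
  by_contra h
  rw [Nat.not_odd_iff_even, even_iff_two_dvd] at h
  have : Fact (Nat.Prime 2) := ⟨Nat.prime_two⟩
  obtain ⟨g, hg⟩ := exists_prime_orderOf_dvd_card' 2 h
  have hg' : orderOf (g : G) = 2 := by rw [Subgroup.orderOf_coe, hg]
  have hzn : zpowers a ≤ nor Q := Subgroup.zpowers_le.2 haQ
  obtain ⟨b, hb, u, hu, e⟩ := (mem_sup_nor hzn).1 (hW g.2)
  have hbo : orderOf b ∣ p := by
    rw [← C.ord_pt ha]; exact orderOf_dvd_of_mem_zpowers hb
  obtain ⟨n, hn⟩ := DTO.sqrt_odd (Odd.of_dvd_nat (C.pp.odd_of_ne_two C.p2) hbo)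
  have hbb := DTO.prod_pow (hzn hb) hu 2
  rw [← e, ← hg', pow_orderOf_eq_one, mul_one, hg', inv_mem_iff, pow_two] at hbb
  have hbQ : b ∈ Q := by
    rw [← hn, ← Commute.mul_pow (Commute.refl b)]; exact pow_mem hbb n
  have := DTO.odd_ord C.qp C.q2 hQ (mul_mem hbQ hu)
  rw [← e, hg'] at this
  exact absurd this (by decide)

theorem odd_case (C : Ctx p q x) : False := by
  obtain ⟨s, hs⟩ := ev C
  have hss : s * s = 1 := by rw [← pow_two, ← hs, pow_orderOf_eq_one]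
  have hs1 : s ≠ 1 := by rintro rfl; simp at hs
  by_cases h : ∀ a b, IsConj x a → Commute a s → IsConj x b → Commute b s → b ∈ zpowers a
  · exact not_iso C ⟨hs, single C hss h⟩
  push Not at h
  obtain ⟨a, a', ha, has, ha', has', haa⟩ := h
  have hC : cen s ≠ ⊤ :=
    C.cen_ne_top hs1 (by rw [hs]; exact (Nat.coprime_primes Nat.prime_two C.pp).2 C.p2.symm)
  have haC : a ∈ cen s := mem_cen.2 has
  have hcc := C.cm_th ha haC
  obtain ⟨Q, hQ, pa, -, hle⟩ := C.blk_of ha (C.loc _ a hC haC ha) (C.le_nor_th ha haC haC) (by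
    rw [hcc]
    intro e
    obtain ⟨t, ht, k, e2⟩ := C.loc_pts ha haC ha' (mem_cen.2 has')
    rw [e, Subgroup.mem_bot] at ht
    refine haa ?_
    rw [e2, ht, inv_one, one_mul, mul_one]
    exact pow_mem (Subgroup.mem_zpowers a) k)
  rw [hcc] at hle
  have f : ∀ b, IsConj x b → Commute b s → b ∈ nor Q := fun b hb hbs => by
    obtain ⟨t, ht, k, rfl⟩ := C.loc_pts ha haC hb (mem_cen.2 hbs)
    have ht' : t ∈ nor Q := Subgroup.le_normalizer (hle ht)
    exact mul_mem (mul_mem (inv_mem ht') (pow_mem pa.2 k)) ht'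
  have hN : ∀ g : G, Commute g s → g ∈ nor Q := fun g hg => by
    rw [← cj_eq_self_iff]
    refine uniq C hss ha has ha' has' haa (hQ.cj g) hQ (fun b hb hbs => ?_) f
    rw [nor_cj, mem_cj]
    have := f _ (DTO.isConj_conj hb g⁻¹) ((hg.inv_left.mul_left hbs).mul_left hg.inv_left.inv_left)
    rwa [inv_inv] at this
  have hpt : ∀ y, Pt x Q y → y ∈ zpowers a ⊔ Q := fun y hy => by
    obtain ⟨t, ht, k, rfl⟩ := C.blk_pts hQ pa hy
    have ht' : t ∈ zpowers a ⊔ Q := Subgroup.mem_sup_right ht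
    exact mul_mem (mul_mem (inv_mem ht') (Subgroup.mem_sup_left (pow_mem (Subgroup.mem_zpowers a) k))) ht'
  have hnor : ∀ g ∈ nor Q, ∀ r ∈ zpowers a ⊔ Q, g * r * g⁻¹ ∈ zpowers a ⊔ Q := by
    intro g hg
    have : zpowers a ⊔ Q ≤ (zpowers a ⊔ Q).comap (MulAut.conj g).toMonoidHom :=
      sup_le (Subgroup.zpowers_le.2 (hpt _ (pa.conj hg))) fun u hu =>
        Subgroup.mem_sup_right (DTO.conj_mem hg hu)
    exact fun r hr => this hr
  refine SDP.b0_trick' s x hs ?_ fun w hw => ?_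
  · rw [← C.gen, Subgroup.normalClosure]
    congr 1
    ext y
    simp [Group.mem_conjugatesOfSet_iff]
  obtain ⟨y, c, W, hy, hys, hW, hyW, hc, hcy, hcs, hconj⟩ := prod C hs hw
  refine ⟨y * c, SDP.mem_cpc ((zpowers a ⊔ Q) ⊓ cen s) inf_le_right
    (fun g hg r hr => ⟨hnor g (hN g hg) r hr.1,
      DTO.conj_mem (Subgroup.le_normalizer (mem_cen.2 hg)) (R := cen s) hr.2⟩)
    (OddAux.odd_sup C hQ.pgroup ha pa.2 inf_le_left)
    ⟨mul_mem (hpt y ⟨hy, f y hy hys⟩) ?_, mem_cen.2 (hys.mul_left hcs)⟩, hconj⟩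
  by_cases hc1 : c = 1
  · rw [hc1]; exact one_mem _
  obtain ⟨Q1, hQ1, py, -, hle1⟩ := C.blk_of hy hW hyW (fun e => hc1 (Subgroup.mem_bot.1 (e ▸ hc)))
  have hz := (C.zb_iff hQ1 py).2 ⟨hle1 hc, hcy⟩
  have hd := (C.d0_loc hQ1 py hC (mem_cen.2 hys) hz hc1 (mem_cen.2 hcs)).2
  have e := uniq C hss ha has ha' has' haa hQ1 hQ (fun b hb hbs => hd b hb (mem_cen.2 hbs)) f
  exact Subgroup.mem_sup_right (e ▸ hle1 hc)

end Cfsg.Agent.DU
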