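import Cfsg.Agent.DU.Sub
import Cfsg.Agent.DU.Odd

set_option autoImplicit false
set_option linter.unusedSectionVars false

namespace Cfsg.Agent.DU

open Cfsg.Agent.DT hiding Ctx Blk
open Subgroup (zpowers)

universe u

theorem IndAux.tq {p q : ℕ} (hp : p.Prime) (hq : q.Prime) (hp2 : p ≠ 2) (hq2 : q ≠ 2) (hpq : p ≠ q) (n : ℕ) :
    ∀ (G : Type u) [Group G] [Finite G], Nat.card G = n → ∀ x : G, orderOf x = p →
      K1 q x → H2 q x → K3 x → IsPGroup q (th (⊤ : Subgroup G) x) := by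
  induction n using Nat.strong_induction_on with
  | _ n ih =>
  intro G _ _ hn x hx h1 h2 h3
  by_contra bad
  have hxp : x ^ p = 1 := hx ▸ pow_orderOf_eq_one x
  have loc : ∀ (L : Subgroup G) (y : G), L ≠ ⊤ → y ∈ L → IsConj x y → IsPGroup q (th L y) := by
    intro L y hL hy hxy
    refine th_sub L ⟨y, hy⟩ (ih _ ?_ L rfl ⟨y, hy⟩ ?_ (k1_sub L _ (k1_conj h1 hxy))
      (h2_sub L _ (h2_conj h2 hxy)) (k3_sub L _ (k3_conj h3 hxy)))
    · rw [← hn]
      exact lt_of_le_of_ne L.card_le_card_group fun h => hL (Subgroup.eq_top_of_card_eq L h)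
    · obtain ⟨g, rfl⟩ := isConj_iff.1 hxy
      rw [← Subgroup.orderOf_coe, ← hx]
      exact (MulAut.conj g).orderOf_eq x
  have opp : ∀ N : Subgroup G, N.Normal → (Nat.card N).Coprime p → N = ⊥ := by
    intro N hN hc
    by_contra hne
    refine bad (good_of_quot' hp hq hpq hx N hc h1 (ih _ ?_ (G ⧸ N) rfl _ ?_ (k1_quot N h1)
      (h2_quot hp hq hpq hxp N hc h2) (k3_quot hp hx N hc h3)))
    · rw [← hn, Subgroup.card_eq_card_quotient_mul_card_subgroup N]
      exact lt_mul_of_one_lt_right Nat.card_pos (N.one_lt_card_iff_ne_bot.mpr hne)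
    · have : Fact p.Prime := ⟨hp⟩
      refine orderOf_eq_prime (by rw [← QuotientGroup.mk_pow, hxp, QuotientGroup.mk_one]) fun h => ?_
      have h3 := Subgroup.orderOf_dvd_natCard N ((QuotientGroup.eq_one_iff x).1 h)
      rw [hx] at h3
      exact hp.one_lt.ne' (Nat.Coprime.eq_one_of_dvd hc.symm h3)
  have gen : Subgroup.closure {y : G | IsConj x y} = ⊤ := by
    by_contra hne
    set L := Subgroup.closure {y : G | IsConj x y} with hL
    have hxL : x ∈ L := Subgroup.subset_closure (IsConj.refl x)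
    have hn : zpowers x ≤ nor (th L x) := Subgroup.zpowers_le.2 (mem_nor_cm _ x)
    have e1 : cm ⊤ x ≤ L := cm_le_of (Subgroup.le_normalizer hxL) fun a _ =>
      mul_mem (Subgroup.subset_closure (isConj_iff.2 ⟨a, rfl⟩)) (inv_mem hxL)
    have e2 : L ≤ zpowers x ⊔ th L x := (Subgroup.closure_le _).2 fun y hy => by
      obtain ⟨t, ht, k, rfl⟩ := k1_pts hp hq hpq h1 hx hxL hy (Subgroup.subset_closure hy)
      exact mul_mem (mul_mem (inv_mem (Subgroup.mem_sup_right ht))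
        (Subgroup.mem_sup_left (Subgroup.npow_mem_zpowers x k))) (Subgroup.mem_sup_right ht)
    have e3 : cm L x ≤ th L x := cm_le_of (mem_nor_cm _ x) fun a ha => by
      obtain ⟨b, hb, t, ht, rfl⟩ := (mem_sup_nor hn).1 (e2 ha)
      have k := (mem_nor.1 (hn hb) _).1 (mul_mem ht ((mem_nor.1 (mem_nor_cm _ x) _).1 (inv_mem ht)))
      obtain ⟨i, rfl⟩ := hb
      convert k using 1
      group
    exact bad ((loc L x hne hxL (IsConj.refl x)).to_le ((cm_mono e1 x).trans e3))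
  exact odd_case ⟨hp, hq, hp2, hq2, hpq, hx, h1, h2, h3, opp, loc, gen, bad⟩

variable {G : Type*} [Group G] [Finite G] {p q : ℕ} {x : G}

theorem tq' (hp : p.Prime) (hq : q.Prime) (hp2 : p ≠ 2) (hq2 : q ≠ 2) (hpq : p ≠ q) (x : G) (hx : orderOf x = p)
    (h1 : K1 q x) (h2 : H2 q x) (h3 : K3 x) : IsPGroup q (th (⊤ : Subgroup G) x) :=
  IndAux.tq hp hq hp2 hq2 hpq _ G rfl x hx h1 h2 h3

end Cfsg.Agent.DU
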